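import Mathlib.RingTheory.Finiteness.Defs
import Mathlib.RingTheory.FinitePresentation
import Mathlib.Algebra.Module.FinitePresentation
import Mathlib.LinearAlgebra.Quotient.Basic
import Mathlib.RingTheory.Noetherian.Basic

/-!
# helper18: basic closure properties of coherent modules

"Coherent" means: finitely generated, and every finitely generated submodule is finitely presented.
-/

set_option autoImplicit false

universe u

namespace Groth.Agent.H18

variable {R : Type u} [CommRing R]

/-- The coherence predicate used by the statements. -/
def IsCoh (M : Type u) [AddCommGroup M] [Module R M] : Prop :=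
  Module.Finite R M ∧ ∀ P : Submodule R M, P.FG → Module.FinitePresentation R P

/-- Every f.g. submodule of a coherent module is coherent. -/
theorem isCoh_submodule {M : Type u} [AddCommGroup M] [Module R M] (hM : IsCoh (R := R) M)
    (P : Submodule R M) (hP : P.FG) : IsCoh (R := R) P := by
  refine ⟨Module.Finite.iff_fg.mpr hP, fun Q hQ => ?_⟩
  have hQ' : (Q.map P.subtype).FG := hQ.map _
  have := hM.2 _ hQ'
  exact Module.FinitePresentation.of_equiv (Submodule.equivMapOfInjective P.subtype
    P.injective_subtype Q).symm

/-- The kernel of a map from a finite module to a coherent one is finitely generated. -/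
theorem fg_ker_of_isCoh {N M : Type u} [AddCommGroup N] [Module R N] [AddCommGroup M] [Module R M]
    [Module.Finite R N] (hM : IsCoh (R := R) M) (φ : N →ₗ[R] M) : (LinearMap.ker φ).FG := by
  have hfg : (LinearMap.range φ).FG := by
    rw [LinearMap.range_eq_map]
    exact (Module.Finite.fg_top).map φ
  have := hM.2 _ hfg
  rw [← LinearMap.ker_rangeRestrict]
  exact Module.FinitePresentation.fg_ker _ φ.surjective_rangeRestrict

/-- The quotient of a coherent module by a finitely generated submodule is coherent. -/
theorem isCoh_quotient {M : Type u} [AddCommGroup M] [Module R M] (hM : IsCoh (R := R) M)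
    (K : Submodule R M) (hK : K.FG) : IsCoh (R := R) (M ⧸ K) := by
  have := hM.1
  refine ⟨inferInstance, fun P hP => ?_⟩
  let P' : Submodule R M := P.comap K.mkQ
  have hKP' : K ≤ P' := by
    intro x hx
    change K.mkQ x ∈ P
    rw [Submodule.mkQ_apply, (Submodule.Quotient.mk_eq_zero K).mpr hx]
    exact P.zero_mem
  have hP'fg : P'.FG := by
    apply Submodule.fg_of_fg_map_of_fg_inf_ker K.mkQ
    · rw [Submodule.map_comap_eq_of_surjective (Submodule.mkQ_surjective K)]
      exact hP
    · rw [Submodule.ker_mkQ, inf_eq_right.mpr hKP']
      exact hK
  have hP'fp := hM.2 P' hP'fg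
  let l : P' →ₗ[R] P := K.mkQ.restrict (fun x hx => hx)
  have hl : Function.Surjective l := by
    rintro ⟨y, hy⟩
    obtain ⟨x, rfl⟩ := Submodule.mkQ_surjective K y
    exact ⟨⟨x, hy⟩, rfl⟩
  have hker : LinearMap.ker l = K.comap P'.subtype := by
    ext ⟨z, hz⟩
    simp only [LinearMap.mem_ker, Submodule.mem_comap, Submodule.subtype_apply]
    constructor
    · intro h
      have h' := congrArg Subtype.val h
      exact (Submodule.Quotient.mk_eq_zero K).mp h'
    · intro h
      apply Subtype.ext
      exact (Submodule.Quotient.mk_eq_zero K).mpr h
  have hkerfg : (LinearMap.ker l).FG := by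
    rw [hker]
    have e : (K.comap P'.subtype) ≃ₗ[R] K := Submodule.comapSubtypeEquivOfLe hKP'
    have hKfin : Module.Finite R K := Module.Finite.iff_fg.mpr hK
    have : Module.Finite R (K.comap P'.subtype) := Module.Finite.equiv e.symm
    exact Module.Finite.iff_fg.mp this
  exact Module.finitePresentation_of_surjective l hl hkerfg

end Groth.Agent.H18
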